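import Cfsg.Agent.E82.End
import Cfsg.Agent.E8A.Par.Main

/-!
# S3369: the socle stabilises no subspace of the nilradical of a Borel subalgebra (helper92)
-/

set_option autoImplicit false
set_option maxRecDepth 100000

namespace Cfsg.Agent.E82

open Cfsg Cfsg.Lie
open Cfsg.Agent.H939.L64 (KK E2 LK L2 em aK rE up)
open Cfsg.Agent.E8A (act InN)

variable {S : Type} [Group S] {f : S →* E2} {H : Subgroup E2}

theorem fixd_of_L2 {w : L2} (hw : w ≠ 0) (h : ∀ s, act (f s) w = w) : Fixd f :=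
  ⟨up w, up_ne_zero hw, fun s => by rw [← up_act, h]⟩

/-- **no stable subspace inside the nilradical of a Borel subalgebra** -/
theorem Sit.end_par (hS : Sit f H) (hs : Small S) (hfx : ¬ Fixd f) {W : Submodule KK LK} (h0 : W ≠ ⊥)
    (hst : ∀ s, ∀ w ∈ W, rE (f s) w ∈ W) (hn : ∃ g : ↥(chevE8.group KK), ∀ w ∈ W, InN (aK g w)) : False := by
  have := hs.fin
  obtain ⟨g₀, hg₀⟩ := hn
  obtain ⟨g, lam, h1, h2⟩ := Cfsg.Agent.E8A.Par.exists_par_of_inN (K := KK) h0 (g₀ := g₀) hg₀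
  obtain ⟨R, h3, h4, h5⟩ := Cfsg.Agent.E8A.Par.par_gen (F := ZMod 2) 2 (y := fun s => f s)
    (fun v hv => by
      by_contra h6
      exact hfx (fixd_of_L2 h6 hv)) h1 fun s => h2 _ (hst s)
  refine hS.no_local hs h3 h4 fun h hh => h5 h fun s => ?_
  obtain ⟨τ, hτ⟩ := hS.nor h hh
  exact ⟨τ s, (hτ s).symm⟩

end Cfsg.Agent.E82
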